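import Mathlib
import Cfsg.Agent.H60.DE.Data

/-!
# `PΩ⁺(2n, q)`, `n ≥ 6` even (S3677): large divisors of the order of the simple factor (helper370)

`xx q i = (q ^ (2 i) - 1) / (q ^ 2 - 1)`; its part prime to `q ^ 2 - 1` is at least `xx q i / i`, and prime to `m` if `i` is prime
to `n - 1`.  `good_dvd` : a divisor `y` of the order of `PΩ⁺(2n, q)` prime to `(q ^ 2 - 1) m` divides `I * MS`.
`bound` : if moreover `MS = C A` with `C ∣ m` then `y ∣ I * A`.
`exists_good` : there is such an `y` with `2 g (2 m + 1) (2 m + 2) < y` for all `g` with `2 ^ g ≤ 2 m + 1`.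
-/

set_option autoImplicit false

namespace Cfsg.Agent.H370.DE

open Finset Cfsg.Agent.H902 Cfsg.Agent.H902.Art Cfsg.Agent.H60.DE

/-! ### `xx` -/

/-- `(q ^ (2 i) - 1) / (q ^ 2 - 1)` -/
def xx (q i : ℕ) : ℕ := (q ^ (2 * i) - 1) / (q ^ 2 - 1)

theorem xx_mul {q : ℕ} (i : ℕ) : xx q i * (q ^ 2 - 1) = q ^ (2 * i) - 1 := by
  apply Nat.div_mul_cancel
  rw [pow_mul]
  simpa using Nat.sub_dvd_pow_sub_pow (q ^ 2) 1 i

theorem le_xx {q i : ℕ} (hq : 2 ≤ q) (hi : 1 ≤ i) : q ^ (2 * (i - 1)) ≤ xx q i := by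
  have h1 := xx_mul (q := q) i
  have h4 : 4 ≤ q ^ 2 := by nlinarith
  by_contra hcon
  have h2 : (xx q i + 1) * (q ^ 2 - 1) ≤ q ^ (2 * (i - 1)) * (q ^ 2 - 1) := Nat.mul_le_mul_right _ (by omega)
  have h3 : q ^ (2 * (i - 1)) * (q ^ 2 - 1) = q ^ (2 * i) - q ^ (2 * (i - 1)) := by
    rw [Nat.mul_sub, mul_one, ← pow_add]
    congr 2
    omega
  have h5 : 1 ≤ q ^ (2 * (i - 1)) := Nat.one_le_pow _ _ (by omega)
  rw [add_mul, one_mul, h1, h3] at h2
  have h6 : q ^ (2 * (i - 1)) ≤ q ^ (2 * i) := Nat.pow_le_pow_right (by omega) (by omega)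
  omega

theorem xx_ne {q i : ℕ} (hq : 2 ≤ q) (hi : 1 ≤ i) : xx q i ≠ 0 := by
  have h1 := le_xx hq hi
  have h5 : 1 ≤ q ^ (2 * (i - 1)) := Nat.one_le_pow _ _ (by omega)
  omega

theorem xx_dvd {q : ℕ} (i : ℕ) : xx q i ∣ q ^ (2 * i) - 1 := Dvd.intro _ (xx_mul i)

theorem val_xx {q i t : ℕ} (hq : 2 ≤ q) (hi : 1 ≤ i) (ht : t.Prime) (hd : t ∣ q ^ 2 - 1) :
    (xx q i).factorization t = i.factorization t := by
  have := Fact.mk ht
  have h4 : 4 ≤ q ^ 2 := by nlinarith
  have h1 : (xx q i * (q ^ 2 - 1)).factorization t = (q ^ (2 * i) - 1).factorization t := by rw [xx_mul]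
  rw [Nat.factorization_mul (xx_ne hq hi) (by omega), Finsupp.add_apply] at h1
  have hq2 : ¬ t ∣ q ^ 2 := by
    intro h
    have h2 := Nat.dvd_sub h hd
    rw [show q ^ 2 - (q ^ 2 - 1) = 1 by omega] at h2
    exact ht.one_lt.ne' (Nat.dvd_one.1 h2)
  have key : (q ^ (2 * i) - 1).factorization t = (q ^ 2 - 1).factorization t + i.factorization t := by
    rcases ht.eq_two_or_odd' with rfl | hodd
    · have hqo : ¬ 2 ∣ q := fun h => hq2 (dvd_pow h two_ne_zero)
      have h3 := padicValNat.pow_two_sub_pow (x := q) (y := 1) (n := 2 * i) (by omega) (by omega) hqo (by omega)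
        (even_two_mul i)
      have h5 := padicValNat.pow_two_sub_pow (x := q) (y := 1) (n := 2) (by omega) (by omega) hqo (by omega)
        even_two
      rw [one_pow, padicValNat.mul (by norm_num) (by omega)] at h3
      rw [one_pow] at h5
      simp only [Nat.factorization_def _ ht]
      omega
    · have h3 := padicValNat.pow_sub_pow hodd (x := q ^ 2) (y := 1) (n := i) (by omega) hd hq2 (by omega)
      rw [one_pow, ← pow_mul] at h3
      simp only [Nat.factorization_def _ ht]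
      exact h3
  omega

/-- dividing by `gcd X K` removes the primes of `D` -/
theorem exists_cop {X K D : ℕ} (hX : X ≠ 0) (hK : K ≠ 0)
    (h : ∀ t : ℕ, t.Prime → t ∣ D → X.factorization t ≤ K.factorization t) :
    ∃ y, y ∣ X ∧ Nat.Coprime y D ∧ X ≤ y * K := by
  obtain ⟨y, hy⟩ := Nat.gcd_dvd_left X K
  have hg : Nat.gcd X K ≠ 0 := Nat.gcd_ne_zero_left hX
  have hy0 : y ≠ 0 := by
    rintro rfl
    rw [mul_zero] at hy
    exact hX hy
  refine ⟨y, Dvd.intro_left _ hy.symm, ?_, ?_⟩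
  · rw [Nat.coprime_iff_gcd_eq_one] 
    by_contra hne
    obtain ⟨t, ht, htd⟩ := Nat.exists_prime_and_dvd hne
    have h1 := h t ht (htd.trans (Nat.gcd_dvd_right _ _))
    have h2 : 1 ≤ y.factorization t := (ht.dvd_iff_one_le_factorization hy0).1 (htd.trans (Nat.gcd_dvd_left _ _))
    have h3 : X.factorization t = (Nat.gcd X K).factorization t + y.factorization t := by
      conv_lhs => rw [hy]
      rw [Nat.factorization_mul hg hy0, Finsupp.add_apply]
    have h4 : (Nat.gcd X K).factorization t = min (X.factorization t) (K.factorization t) := by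
      rw [Nat.factorization_gcd hX hK, Finsupp.inf_apply]
    omega
  · calc X = Nat.gcd X K * y := hy
      _ ≤ K * y := Nat.mul_le_mul_right _ (Nat.le_of_dvd (Nat.pos_of_ne_zero hK) (Nat.gcd_dvd_right _ _))
      _ = y * K := mul_comm _ _

/-- a prime divisor of `xx q i` prime to `q ^ 2 - 1` does not divide `q ^ (2 j) - 1`, `gcd(i, j) = 1` -/
theorem not_dvd_of_cop {q i j t : ℕ} (hij : Nat.Coprime i j) (h1 : t ∣ q ^ (2 * i) - 1)
    (h2 : ¬ t ∣ q ^ 2 - 1) : ¬ t ∣ q ^ (2 * j) - 1 := by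
  intro h
  apply h2
  have h3 := Nat.dvd_gcd h1 h
  rw [Nat.pow_sub_one_gcd_pow_sub_one, Nat.gcd_mul_left, Nat.coprime_iff_gcd_eq_one.1 hij, mul_one] at h3
  exact h3

theorem dvd_sq_sub {q t k : ℕ} (h : t ∣ q ^ k + 1 ∨ t ∣ q ^ k - 1) : t ∣ q ^ (2 * k) - 1 := by
  have h1 : q ^ (2 * k) - 1 = (q ^ k + 1) * (q ^ k - 1) := by
    have := Nat.sq_sub_sq (q ^ k) 1
    rw [one_pow, ← pow_mul, mul_comm k 2] at this
    exact this
  rw [h1]
  rcases h with h | h
  · exact h.mul_right _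
  · exact h.mul_left _

variable {n p f M d m MS I : ℕ}

/-- a prime dividing `m` divides `q ^ (2 (n - 1)) - 1` -/
theorem dvd_of_dvd_m (hD : Dat n p f M d m MS I) {t : ℕ} (ht : t.Prime) (hm : t ∣ m) :
    t ∣ (p ^ f) ^ (2 * (n - 1)) - 1 := by
  obtain ⟨-, h, -⟩ | ⟨-, h, -⟩ := hD.num
  · have h1 : t ∣ ((p ^ f) ^ (n - 1) + 1) * (p ^ f + 1) := by rw [← h]; exact hm.mul_right _
    rcases ht.dvd_mul.1 h1 with h2 | h2
    · exact dvd_sq_sub (Or.inl h2)
    · have h3 : t ∣ (p ^ f) ^ (2 * 1) - 1 := dvd_sq_sub (Or.inl (by rwa [pow_one]))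
      rw [mul_one] at h3
      refine h3.trans ?_
      rw [pow_mul]
      simpa using Nat.sub_dvd_pow_sub_pow ((p ^ f) ^ 2) 1 (n - 1)
  · have h1 : t ∣ ((p ^ f) ^ (n - 1) - 1) * (p ^ f - 1) := by rw [← h]; exact hm.mul_right _
    rcases ht.dvd_mul.1 h1 with h2 | h2
    · exact dvd_sq_sub (Or.inr h2)
    · have h3 : t ∣ (p ^ f) ^ (2 * 1) - 1 := dvd_sq_sub (Or.inr (by rwa [pow_one]))
      rw [mul_one] at h3
      refine h3.trans ?_
      rw [pow_mul]
      simpa using Nat.sub_dvd_pow_sub_pow ((p ^ f) ^ 2) 1 (n - 1)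

/-- **good divisors** -/
theorem good_dvd (hD : Dat n p f M d m MS I) {y : ℕ} (hy : y ∣ num (.D n) (p ^ f))
    (hc : Nat.Coprime y ((p ^ f) ^ 2 - 1)) (hm : Nat.Coprime y m) (hMS : MS ≠ 0) : y ∣ I * MS := by
  have hY := hD.hY
  have hnum := hY.num_ne
  have hI := hD.hI0
  have hy0 : y ≠ 0 := by
    rintro rfl
    exact hnum (Nat.eq_zero_of_zero_dvd hy)
  rw [← Nat.factorization_le_iff_dvd hy0 (Nat.mul_ne_zero (by omega) hMS)]
  intro t
  by_cases ht : t ∣ y ∧ t.Prime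
  · obtain ⟨hty, ht⟩ := ht
    have htp : t ≠ p := by
      rintro rfl
      exact hY.not_dvd_num (hty.trans hy)
    have hnd : ¬ t ∣ (p ^ f) ^ 2 - 1 := fun h =>
      ht.one_lt.ne' (Nat.dvd_one.1 (by rw [← Nat.coprime_iff_gcd_eq_one.1 hc]; exact Nat.dvd_gcd hty h))
    have htm : ¬ t ∣ m := fun h =>
      ht.one_lt.ne' (Nat.dvd_one.1 (by rw [← Nat.coprime_iff_gcd_eq_one.1 hm]; exact Nat.dvd_gcd hty h))
    have h1 := hD.big t ht htp htm (by
      rintro ⟨h2, rfl⟩
      rw [h2] at hnd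
      exact hnd (by norm_num)) (by
      rintro ⟨h2, rfl⟩
      rw [h2] at hnd
      exact hnd (by norm_num))
    have h2 : (num (.D n) (p ^ f)).factorization t ≤ M.factorization t := by
      have hdd : ¬ t ∣ dd (.D n) (p ^ f) := by
        intro h
        have h3 : t ∣ 4 := h.trans (Nat.gcd_dvd_left _ _)
        have h4 : t = 2 := by
          have h5 : (4 : ℕ) = 2 ^ 2 := by norm_num
          rw [h5] at h3
          exact (Nat.prime_dvd_prime_iff_eq ht Nat.prime_two).1 (ht.dvd_of_dvd_pow h3)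
        subst h4
        have h6 : ¬ 2 ∣ p ^ f := fun h => htp ((Nat.prime_dvd_prime_iff_eq ht hY.hp).1 (ht.dvd_of_dvd_pow h))
        apply hnd
        have h7 : 2 ∣ p ^ f - 1 := by omega
        have h8 : p ^ f - 1 ∣ (p ^ f) ^ 2 - 1 := by simpa using Nat.sub_dvd_pow_sub_pow (p ^ f) 1 2
        exact h7.trans h8
      have h3 : (dd (.D n) (p ^ f) * M).factorization t = ((p ^ f) ^ NN (.D n) * num (.D n) (p ^ f)).factorization t := by
        rw [hY.eq]
      rw [Nat.factorization_mul hY.dd_ne hY.M_ne, Nat.factorization_mul (pow_ne_zero _ (by have := hY.q_ge; omega)) hnum,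
        Finsupp.add_apply, Finsupp.add_apply, Nat.factorization_eq_zero_of_not_dvd hdd] at h3
      omega
    have h3 : y.factorization t ≤ (num (.D n) (p ^ f)).factorization t :=
      (Nat.factorization_le_iff_dvd hy0 hnum).2 hy t
    have h4 : M.factorization t ≤ (I * MS).factorization t :=
      (ht.pow_dvd_iff_le_factorization (Nat.mul_ne_zero (by omega) hMS)).1 h1
    omega
  · have : y.factorization t = 0 := by
      rw [Nat.factorization_eq_zero_iff]
      tauto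
    omega

theorem bound (hD : Dat n p f M d m MS I) {y C A : ℕ} (hy : y ∣ num (.D n) (p ^ f))
    (hc : Nat.Coprime y ((p ^ f) ^ 2 - 1)) (hm : Nat.Coprime y m) (hMS : MS ≠ 0) (h : MS = C * A) (hC : C ∣ m) :
    y ∣ I * A := by
  have h1 := good_dvd hD hy hc hm hMS
  rw [h, ← mul_assoc, mul_comm I, mul_assoc] at h1
  exact Nat.Coprime.dvd_of_dvd_mul_left (Nat.Coprime.coprime_dvd_right hC hm) h1

end Cfsg.Agent.H370.DE
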